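import Mathlib
import Cfsg.Agent.H7.DStar
import Cfsg.Agent.H1.PGrp2
import Cfsg.Agent.H3.Rank2

/-! A finite 2-group either has a normal elementary abelian subgroup of order 4 or a
self-centralizing cyclic subgroup of index at most 2. -/

set_option autoImplicit false

namespace CfsgL.Fus

open Subgroup

variable {S : Type*} [Group S]

/-- the key construction -/
theorem four_of_act {a x : S} {M : ℕ} (hM : 1 ≤ M) (ha : orderOf a = 8 * M)
    (hAn : (zpowers a).Normal) (hAc : centralizer (zpowers a : Set S) = zpowers a)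
    (hx : x ∉ zpowers a) (hx2 : x * x ∈ zpowers a)
    (hxa : x * a * x⁻¹ = a ^ (1 + 4 * M : ℤ)) :
    ∃ U : Subgroup S, U.Normal ∧ Nat.card U = 4 ∧ ∀ u ∈ U, u * u = 1 := by
  have hdvd : ∀ k : ℤ, a ^ k = 1 ↔ (8 * M : ℤ) ∣ k := by
    intro k
    rw [← orderOf_dvd_iff_zpow_eq_one, ha]; push_cast; rfl
  have hcj : ∀ k : ℤ, x * a ^ k * x⁻¹ = a ^ ((1 + 4 * M : ℤ) * k) := by
    intro k
    rw [← conj_zpow, hxa, zpow_mul]
  obtain ⟨k, hk⟩ := hx2
  have hk : a ^ k = x * x := hk
  have hk2 : (2 : ℤ) ∣ k := by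
    have h1 : x * a ^ k * x⁻¹ = a ^ k := by rw [hk]; group
    rw [hcj] at h1
    have h2 : a ^ ((1 + 4 * M : ℤ) * k - k) = 1 := by rw [zpow_sub, h1, mul_inv_cancel]
    rw [hdvd] at h2
    obtain ⟨c, hc⟩ := h2
    have h3 : (4 * M : ℤ) * k = (4 * M : ℤ) * (2 * c) := by linear_combination hc
    have h4 : (4 * M : ℤ) ≠ 0 := by positivity
    exact ⟨c, mul_left_cancel₀ h4 h3⟩
  obtain ⟨j, rfl⟩ := hk2
  obtain ⟨i, hi⟩ : ∃ i : ℤ, i = -j * (1 - 2 * M) := ⟨_, rfl⟩
  obtain ⟨y, hy⟩ : ∃ y, y = a ^ i * x := ⟨_, rfl⟩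
  have haA : ∀ k : ℤ, a ^ k ∈ zpowers a := fun k => ⟨k, rfl⟩
  have hyA : y ∉ zpowers a := by
    intro h
    apply hx
    have : x = (a ^ i)⁻¹ * y := by rw [hy]; group
    rw [this]; exact mul_mem (inv_mem (haA i)) h
  have hcy : ∀ k : ℤ, y * a ^ k * y⁻¹ = a ^ ((1 + 4 * M : ℤ) * k) := by
    intro k
    rw [hy]
    calc a ^ i * x * a ^ k * (a ^ i * x)⁻¹ = a ^ i * (x * a ^ k * x⁻¹) * (a ^ i)⁻¹ := by group
      _ = a ^ i * a ^ ((1 + 4 * M : ℤ) * k) * (a ^ i)⁻¹ := by rw [hcj]
      _ = a ^ ((1 + 4 * M : ℤ) * k) := by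
        rw [← zpow_add, ← zpow_neg, ← zpow_add]; congr 1; ring
  have hsq : ∀ l : ℤ, (a ^ l * y) * (a ^ l * y) = a ^ ((2 + 4 * M : ℤ) * l) * (y * y) := by
    intro l
    calc (a ^ l * y) * (a ^ l * y) = a ^ l * (y * a ^ l * y⁻¹) * (y * y) := by group
      _ = a ^ l * a ^ ((1 + 4 * M : ℤ) * l) * (y * y) := by rw [hcy]
      _ = _ := by rw [← zpow_add]; congr 2; ring
  have hy2 : y * y = 1 := by
    have h1 : y * y = a ^ (i + (1 + 4 * M : ℤ) * i + 2 * j) := by
      rw [hy]
      calc a ^ i * x * (a ^ i * x) = a ^ i * (x * a ^ i * x⁻¹) * (x * x) := by group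
        _ = a ^ i * a ^ ((1 + 4 * M : ℤ) * i) * a ^ (2 * j) := by rw [hcj, hk]
        _ = _ := by rw [← zpow_add, ← zpow_add]
    rw [h1, hdvd, hi]
    exact ⟨j * M, by ring⟩
  obtain ⟨z, hz⟩ : ∃ z, z = a ^ (4 * M : ℤ) := ⟨_, rfl⟩
  have hz1 : z ≠ 1 := by
    intro h
    rw [hz, hdvd] at h
    have := Int.le_of_dvd (by positivity) h
    have h1 : (1 : ℤ) ≤ M := by exact_mod_cast hM
    linarith
  have hz2 : z * z = 1 := by
    rw [hz, ← zpow_add, hdvd]; exact ⟨1, by ring⟩
  have hzA : z ∈ zpowers a := hz ▸ haA _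
  -- elements of A with square one
  have hAsq : ∀ u ∈ zpowers a, u * u = 1 → u = 1 ∨ u = z := by
    rintro _ ⟨l, rfl⟩ h
    have h : a ^ l * a ^ l = 1 := h
    rw [← zpow_add, hdvd] at h
    obtain ⟨c, hc⟩ := h
    have hl : l = 4 * M * c := by linarith
    rcases Int.even_or_odd c with ⟨d, hd⟩ | ⟨d, hd⟩
    · left
      show a ^ l = 1
      rw [hdvd, hl, hd]; exact ⟨d, by ring⟩
    · right
      show a ^ l = z
      rw [hz, hl, hd]
      have : a ^ (4 * M * (2 * d + 1) : ℤ) = a ^ (8 * M * d : ℤ) * a ^ (4 * M : ℤ) := by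
        rw [← zpow_add]; congr 1; ring
      rw [this, (hdvd _).2 ⟨d, rfl⟩, one_mul]
  have hzy : z * y = y * z := by
    have h := hcy (4 * M)
    rw [← hz] at h
    have h1 : a ^ ((1 + 4 * M : ℤ) * (4 * M)) = z := by
      rw [hz, show ((1 + 4 * M : ℤ) * (4 * M)) = 8 * M * (2 * M) + 4 * M by ring, zpow_add,
        (hdvd _).2 ⟨2 * M, by ring⟩, one_mul]
    rw [h1] at h
    calc z * y = (y * z * y⁻¹) * y := by rw [h]
      _ = y * z := by group
  -- involutions of the coset
  have hAy : ∀ u ∈ zpowers a, (u * y) * (u * y) = 1 → u = 1 ∨ u = z := by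
    rintro _ ⟨l, rfl⟩ h
    have h : (a ^ l * y) * (a ^ l * y) = 1 := h
    rw [hsq, hy2, mul_one, hdvd] at h
    obtain ⟨c, hc⟩ := h
    apply hAsq _ (haA l)
    show a ^ l * a ^ l = 1
    rw [← zpow_add, hdvd]
    -- (1 + 2M) l = 4 M c, multiply by (1 - 2M)
    have h1 : (1 + 2 * M : ℤ) * l = 4 * M * c := by linarith
    exact ⟨c * (1 - 2 * M) + l * M, by linear_combination 2 * (1 - 2 * M : ℤ) * h1⟩
  -- z is fixed
  have hzg : ∀ g, g * z * g⁻¹ = z := by
    intro g
    rcases hAsq (g * z * g⁻¹) (hAn.conj_mem z hzA g) (by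
      calc g * z * g⁻¹ * (g * z * g⁻¹) = g * (z * z) * g⁻¹ := by group
        _ = 1 := by rw [hz2]; group) with h | h
    · exfalso; apply hz1
      calc z = g⁻¹ * (g * z * g⁻¹) * g := by group
        _ = 1 := by rw [h]; group
    · exact h
  -- conjugates of y
  have hyg : ∀ g, g * y * g⁻¹ = y ∨ g * y * g⁻¹ = z * y := by
    intro g
    have h1 : g * y * g⁻¹ * y⁻¹ ∈ zpowers a := by
      rw [← hAc, mem_centralizer_iff]
      rintro _ ⟨l, rfl⟩
      show a ^ l * (g * y * g⁻¹ * y⁻¹) = g * y * g⁻¹ * y⁻¹ * a ^ l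
      obtain ⟨s, hs⟩ : ∃ s : ℤ, g⁻¹ * a * g = a ^ s := by
        have h2 := hAn.conj_mem a (mem_zpowers a) g⁻¹
        rw [inv_inv] at h2
        obtain ⟨s, hs⟩ := h2
        exact ⟨s, hs.symm⟩
      have hs' : ∀ k : ℤ, g⁻¹ * a ^ k * g = a ^ (s * k) := by
        intro k
        have : g⁻¹ * a ^ k * g = (g⁻¹ * a * g) ^ k := by
          have := conj_zpow (i := k) (a := g⁻¹) (b := a)
          rw [inv_inv] at this
          exact this.symm
        rw [this, hs, zpow_mul]
      have hyi : ∀ k : ℤ, y⁻¹ * a ^ k * y = a ^ ((1 + 4 * M : ℤ) * k) := by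
        intro k
        have : y⁻¹ = y := inv_eq_of_mul_eq_one_right hy2
        rw [this]
        have h3 := hcy k
        rwa [this] at h3
      -- conjugating a^l by the commutator
      have h4 : (g * y * g⁻¹ * y⁻¹)⁻¹ * a ^ l * (g * y * g⁻¹ * y⁻¹) = a ^ l := by
        have e1 : (g * y * g⁻¹ * y⁻¹)⁻¹ * a ^ l * (g * y * g⁻¹ * y⁻¹) =
            y * (g * (y⁻¹ * (g⁻¹ * a ^ l * g) * y) * g⁻¹) * y⁻¹ := by group
        rw [e1, hs', hyi]
        have e2 : g * a ^ ((1 + 4 * M : ℤ) * (s * l)) * g⁻¹ = a ^ ((1 + 4 * M : ℤ) * l) := by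
          have := hs' ((1 + 4 * M : ℤ) * l)
          rw [show s * ((1 + 4 * M : ℤ) * l) = (1 + 4 * M : ℤ) * (s * l) by ring] at this
          rw [← this]; group
        rw [e2, hcy]
        have e3 : (1 + 4 * M : ℤ) * ((1 + 4 * M : ℤ) * l) = 8 * M * (l * (1 + 2 * M)) + l := by ring
        rw [e3, zpow_add, (hdvd _).2 ⟨_, rfl⟩, one_mul]
      calc a ^ l * (g * y * g⁻¹ * y⁻¹)
          = (g * y * g⁻¹ * y⁻¹) * ((g * y * g⁻¹ * y⁻¹)⁻¹ * a ^ l * (g * y * g⁻¹ * y⁻¹)) := by group
        _ = _ := by rw [h4]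
    have h2 : (g * y * g⁻¹ * y⁻¹) * y = g * y * g⁻¹ := by group
    rcases hAy _ h1 (by
      rw [h2]
      calc g * y * g⁻¹ * (g * y * g⁻¹) = g * (y * y) * g⁻¹ := by group
        _ = 1 := by rw [hy2]; group) with h | h
    · left; rw [← h2, h, one_mul]
    · right; rw [← h2, h]
  have hy1 : y ≠ 1 := fun h => hyA (h ▸ one_mem _)
  have hyz : y ≠ z := fun h => hyA (h ▸ hzA)
  have hzi : z⁻¹ = z := inv_eq_of_mul_eq_one_right hz2
  have hyi : y⁻¹ = y := inv_eq_of_mul_eq_one_right hy2
  let U : Subgroup S :=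
    { carrier := {u | u = 1 ∨ u = z ∨ u = y ∨ u = z * y}
      one_mem' := Or.inl rfl
      mul_mem' := by
        rintro u v (rfl | rfl | rfl | rfl) (rfl | rfl | rfl | rfl)
        · left; simp
        · right; left; simp
        · right; right; left; simp
        · right; right; right; simp
        · right; left; simp
        · left; exact hz2
        · right; right; right; rfl
        · right; right; left; rw [← mul_assoc, hz2, one_mul]
        · right; right; left; simp
        · right; right; right; exact hzy.symm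
        · left; exact hy2
        · right; left; rw [hzy, ← mul_assoc, hy2, one_mul]
        · right; right; right; simp
        · right; right; left; rw [mul_assoc, ← hzy, ← mul_assoc, hz2, one_mul]
        · right; left; rw [mul_assoc, hy2, mul_one]
        · left
          calc z * y * (z * y) = z * (y * z) * y := by group
            _ = z * (z * y) * y := by rw [hzy]
            _ = (z * z) * (y * y) := by group
            _ = 1 := by rw [hz2, hy2, one_mul]
      inv_mem' := by
        rintro u (rfl | rfl | rfl | rfl)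
        · left; simp
        · right; left; exact hzi
        · right; right; left; exact hyi
        · right; right; right; rw [mul_inv_rev, hzi, hyi, hzy] }
  have hUm : ∀ u, u ∈ U ↔ u = 1 ∨ u = z ∨ u = y ∨ u = z * y := fun u => Iff.rfl
  refine ⟨U, ⟨fun u hu g => ?_⟩, ?_, ?_⟩
  · rw [hUm] at hu ⊢
    rcases hu with rfl | rfl | rfl | rfl
    · left; group
    · right; left; exact hzg g
    · right; right; exact hyg g
    · have e : g * (z * y) * g⁻¹ = (g * z * g⁻¹) * (g * y * g⁻¹) := by group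
      rw [e, hzg g]
      rcases hyg g with h | h
      · right; right; right; rw [h]
      · right; right; left; rw [h, ← mul_assoc, hz2, one_mul]
  · classical
    have : (U : Set S) = (({1, z, y, z * y} : Finset S) : Set S) := by
      ext u
      simp only [SetLike.mem_coe, hUm, Finset.coe_insert, Finset.coe_singleton,
        Set.mem_insert_iff, Set.mem_singleton_iff]
    have h1 : Nat.card U = Nat.card (U : Set S) := rfl
    rw [h1, this, Nat.card_coe_set_eq, Set.ncard_coe_finset]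
    rw [Finset.card_eq_of_equiv_fin]
    have hzy1 : z * y ≠ 1 := by
      intro h; apply hyz
      rw [← hzi]; exact (inv_eq_of_mul_eq_one_right h).symm
    have hzyz : z * y ≠ z := by
      intro h; exact hy1 (mul_eq_left.1 h)
    have hzyy : z * y ≠ y := by
      intro h; exact hz1 (mul_eq_right.1 h)
    have hc : ({1, z, y, z * y} : Finset S).card = 4 := by
      rw [Finset.card_insert_of_notMem, Finset.card_insert_of_notMem,
        Finset.card_insert_of_notMem, Finset.card_singleton]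
      · simp only [Finset.mem_singleton]; exact hzyy.symm
      · simp only [Finset.mem_insert, Finset.mem_singleton]
        push Not
        exact ⟨hyz.symm, hzyz.symm⟩
      · simp only [Finset.mem_insert, Finset.mem_singleton]
        push Not
        exact ⟨hz1.symm, hy1.symm, hzy1.symm⟩
    exact (Finset.equivFinOfCardEq hc)
  · intro u hu
    rw [hUm] at hu
    rcases hu with rfl | rfl | rfl | rfl
    · simp
    · exact hz2
    · exact hy2
    · calc z * y * (z * y) = z * (y * z) * y := by group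
        _ = z * (z * y) * y := by rw [hzy]
        _ = (z * z) * (y * y) := by group
        _ = 1 := by rw [hz2, hy2, one_mul]

/-- square roots of one modulo a power of two -/
theorem sqrt_one {m : ℕ} (hm : 1 ≤ m) (t : ℤ) (ht : (2 ^ m : ℤ) ∣ t * t - 1) :
    (2 ^ (m - 1) : ℤ) ∣ t - 1 ∨ (2 ^ (m - 1) : ℤ) ∣ t + 1 := by
  obtain ⟨k, rfl⟩ : ∃ k, m = k + 1 := ⟨m - 1, by omega⟩
  rw [Nat.add_sub_cancel]
  have hodd : ¬ (2 : ℤ) ∣ t := by
    intro h
    have h1 : (2 : ℤ) ∣ t * t - 1 := (dvd_pow_self 2 (by omega)).trans ht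
    have h2 : (2 : ℤ) ∣ t * t := h.mul_right t
    have h3 := dvd_sub h2 h1
    have h4 : t * t - (t * t - 1) = 1 := by ring
    rw [h4] at h3
    omega
  obtain ⟨s, hs⟩ : ∃ s, t = 2 * s + 1 := ⟨t / 2, by omega⟩
  rcases Nat.eq_zero_or_pos k with rfl | hk
  · left; simp
  have h1 : (2 ^ (k + 1) : ℤ) ∣ 4 * (s * (s + 1)) := by
    have : t * t - 1 = 4 * (s * (s + 1)) := by rw [hs]; ring
    rwa [this] at ht
  obtain ⟨j, rfl⟩ : ∃ j, k = j + 1 := ⟨k - 1, by omega⟩
  have h2 : (2 ^ j : ℤ) ∣ s * (s + 1) := by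
    obtain ⟨c, hc⟩ := h1
    refine ⟨c, ?_⟩
    have : (4 : ℤ) * (s * (s + 1)) = 4 * (2 ^ j * c) := by rw [hc]; ring
    linarith
  rcases Int.even_or_odd s with he | ho
  · left
    have hco : IsCoprime (2 ^ j : ℤ) (s + 1) := by
      apply IsCoprime.pow_left
      rw [Int.isCoprime_iff_gcd_eq_one]
      obtain ⟨r, hr⟩ := he
      have : s + 1 = 2 * r + 1 := by omega
      rw [this]
      apply Int.isCoprime_iff_gcd_eq_one.1
      exact ⟨-r, 1, by ring⟩
    have h3 := hco.dvd_of_dvd_mul_right h2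
    obtain ⟨c, hc⟩ := h3
    exact ⟨c, by rw [hs, hc]; ring⟩
  · right
    have hco : IsCoprime (2 ^ j : ℤ) s := by
      apply IsCoprime.pow_left
      obtain ⟨r, hr⟩ := ho
      rw [hr]
      exact ⟨-r, 1, by ring⟩
    have h3 := hco.dvd_of_dvd_mul_left h2
    obtain ⟨c, hc⟩ := h3
    exact ⟨c, by rw [hs]; linear_combination 2 * hc⟩

/-- A finite abelian 2-group with at most one involution is cyclic. -/
theorem cyclic_of_sq {A : Type*} [CommGroup A] [Finite A] (hA : IsPGroup 2 A)
    (h : Nat.card (powMonoidHom 2 : A →* A).ker ≤ 2) : IsCyclic A := by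
  classical
  haveI : Fintype A := Fintype.ofFinite A
  have key : ∀ k : ℕ, Nat.card (powMonoidHom (2 ^ k) : A →* A).ker ≤ 2 ^ k := by
    intro k
    induction k with
    | zero =>
      have : (powMonoidHom (2 ^ 0) : A →* A).ker = ⊥ := by
        rw [eq_bot_iff]
        intro x hx
        rw [MonoidHom.mem_ker] at hx
        simpa using hx
      rw [this, Subgroup.card_bot]; norm_num
    | succ k ih =>
      let f : (powMonoidHom (2 ^ (k + 1)) : A →* A).ker →* (powMonoidHom (2 ^ k) : A →* A).ker :=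
        { toFun := fun x => ⟨(x : A) ^ 2, by
            rw [MonoidHom.mem_ker]
            show ((x : A) ^ 2) ^ (2 ^ k) = 1
            rw [← pow_mul, ← pow_succ']
            exact x.2⟩
          map_one' := Subtype.ext (one_pow 2)
          map_mul' := fun x y => Subtype.ext (mul_pow (x : A) (y : A) 2) }
      have h1 : Nat.card f.ker * Nat.card f.range = Nat.card (powMonoidHom (2 ^ (k + 1)) : A →* A).ker := by
        rw [← Subgroup.index_ker f, Subgroup.card_mul_index]
      have h2 : Nat.card f.ker ≤ 2 := by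
        refine le_trans ?_ h
        apply Nat.card_le_card_of_injective (fun x : f.ker => (⟨((x : (powMonoidHom (2 ^ (k + 1)) : A →* A).ker) : A), by
          have := x.2
          rw [MonoidHom.mem_ker] at this
          exact congrArg Subtype.val this⟩ : (powMonoidHom 2 : A →* A).ker))
        intro x y hxy
        exact Subtype.ext (Subtype.ext (Subtype.mk.inj hxy))
      have h3 : Nat.card f.range ≤ 2 ^ k :=
        (Subgroup.card_le_card_group f.range).trans ih
      rw [← h1]
      calc Nat.card f.ker * Nat.card f.range ≤ 2 * 2 ^ k := Nat.mul_le_mul h2 h3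
        _ = 2 ^ (k + 1) := (pow_succ' 2 k).symm
  apply isCyclic_of_card_pow_eq_one_le
  intro n hn
  obtain ⟨k, m, hm, rfl⟩ : ∃ k m : ℕ, ¬ 2 ∣ m ∧ n = 2 ^ k * m :=
    ⟨_, _, Nat.not_dvd_ordCompl Nat.prime_two hn.ne', (Nat.ordProj_mul_ordCompl_eq_self n 2).symm⟩
  have hm0 : 1 ≤ m := by
    rcases Nat.eq_zero_or_pos m with rfl | h0
    · exact absurd (dvd_zero 2) hm
    · exact h0
  refine le_trans ?_ ((key k).trans (Nat.le_mul_of_pos_right _ hm0))
  have hc : Nat.card (powMonoidHom (2 ^ k) : A →* A).ker =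
      Nat.card (((powMonoidHom (2 ^ k) : A →* A).ker : Set A)) := rfl
  rw [hc, Nat.card_coe_set_eq, ← Set.ncard_coe_finset]
  apply Set.ncard_le_ncard _ (Set.toFinite _)
  intro a ha
  rw [Finset.mem_coe, Finset.mem_filter] at ha
  rw [SetLike.mem_coe, MonoidHom.mem_ker]
  show a ^ 2 ^ k = 1
  have h1 : (a ^ 2 ^ k) ^ m = 1 := by rw [← pow_mul]; exact ha.2
  obtain ⟨j, hj⟩ := hA (a ^ 2 ^ k)
  have h2 : orderOf (a ^ 2 ^ k) ∣ m := orderOf_dvd_of_pow_eq_one h1
  have h3 : orderOf (a ^ 2 ^ k) ∣ 2 ^ j := orderOf_dvd_of_pow_eq_one hj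
  have h4 : Nat.Coprime m (2 ^ j) := (Nat.Coprime.pow_left j ((Nat.Prime.coprime_iff_not_dvd Nat.prime_two).2 hm)).symm
  have h5 := Nat.eq_one_of_dvd_coprimes h4 h2 h3
  exact orderOf_eq_one_iff.1 h5

/-- A finite 2-group with no normal elementary abelian subgroup of order 4 has a
self-centralizing cyclic subgroup of index at most 2. -/
theorem normal_four_or [Finite S] (hS : IsPGroup 2 S) :
    (∃ U : Subgroup S, U.Normal ∧ Nat.card U = 4 ∧ ∀ u ∈ U, u * u = 1) ∨
    ∃ a : S, (zpowers a).Normal ∧ centralizer (zpowers a : Set S) = zpowers a ∧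
      (zpowers a).index ≤ 2 := by
  classical
  haveI : Fact (Nat.Prime 2) := ⟨Nat.prime_two⟩
  haveI : Group.IsNilpotent S := hS.isNilpotent
  obtain ⟨A, hAn, hAc, hAm⟩ := CfsgH7.exists_max_abelian_normal hS
  have hAC := CfsgH1.centralizer_eq_of_max_abelian_normal hAc hAm
  by_contra hcon
  push Not at hcon
  obtain ⟨hno, hcy⟩ := hcon
  -- A is cyclic
  have hcyc : IsCyclic A := by
    by_contra hnc
    -- the elements of A of square one
    let W : Subgroup S :=
      { carrier := {w | w ∈ A ∧ w * w = 1}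
        one_mem' := ⟨one_mem _, by simp⟩
        mul_mem' := by
          rintro u v ⟨hu, hu2⟩ ⟨hv, hv2⟩
          refine ⟨mul_mem hu hv, ?_⟩
          calc u * v * (u * v) = u * (v * u) * v := by group
            _ = u * (u * v) * v := by rw [hAc v hv u hu]
            _ = (u * u) * (v * v) := by group
            _ = 1 := by rw [hu2, hv2, one_mul]
        inv_mem' := by
          rintro u ⟨hu, hu2⟩
          refine ⟨inv_mem hu, ?_⟩
          rw [← mul_inv_rev, hu2, inv_one] }
    have hWm : ∀ w, w ∈ W ↔ w ∈ A ∧ w * w = 1 := fun w => Iff.rfl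
    haveI hWn : W.Normal := by
      refine ⟨fun w hw g => ?_⟩
      rw [hWm] at hw ⊢
      refine ⟨hAn.conj_mem w hw.1 g, ?_⟩
      calc g * w * g⁻¹ * (g * w * g⁻¹) = g * (w * w) * g⁻¹ := by group
        _ = 1 := by rw [hw.2]; group
    have hW4 : 2 ^ 2 ≤ Nat.card W := by
      by_contra hlt
      push Not at hlt
      apply hnc
      -- a finite abelian 2-group with at most one involution is cyclic
      haveI : IsMulCommutative A := ⟨⟨fun a b => Subtype.ext (hAc a a.2 b b.2)⟩⟩
      have hW2 : Nat.card W ≤ 2 := by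
        have hWp : IsPGroup 2 W := hS.to_subgroup W
        obtain ⟨k, hk⟩ := IsPGroup.iff_card.1 hWp
        rcases k with _ | _ | k
        · rw [hk]; norm_num
        · rw [hk]; norm_num
        · rw [hk] at hlt
          exfalso
          have : 2 ^ 2 ≤ 2 ^ (k + 1 + 1) := Nat.pow_le_pow_right (by norm_num) (by omega)
          omega
      letI : CommGroup A := { (inferInstance : Group A) with mul_comm := fun a b => Subtype.ext (hAc a a.2 b b.2) }
      apply cyclic_of_sq (hS.to_subgroup A)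
      refine le_trans ?_ hW2
      apply Nat.card_le_card_of_injective (fun x : (powMonoidHom 2 : A →* A).ker =>
        (⟨((x : A) : S), by
          rw [hWm]
          refine ⟨(x : A).2, ?_⟩
          have h1 := x.2
          rw [MonoidHom.mem_ker] at h1
          have h2 : (x : A) ^ 2 = 1 := h1
          rw [pow_two] at h2
          exact congrArg Subtype.val h2⟩ : W))
      intro x y hxy
      exact Subtype.ext (Subtype.ext (Subtype.mk.inj hxy))
    obtain ⟨U, hUW, hUn, hU4⟩ := CfsgH3.exists_normal_card hS W 2 hW4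
    obtain ⟨u, hu, hu2⟩ := hno U hUn (by rw [hU4]; norm_num)
    exact hu2 (hUW hu).2
  obtain ⟨⟨a, haA⟩, hagen⟩ := hcyc.exists_generator
  have hAz : A = zpowers a := by
    apply le_antisymm
    · intro x hx
      obtain ⟨k, hk⟩ := hagen ⟨x, hx⟩
      exact ⟨k, congrArg Subtype.val hk⟩
    · rw [zpowers_le]; exact haA
  subst hAz
  have hidx := hcy a hAn hAC
  obtain ⟨m, hm⟩ : ∃ m, orderOf a = 2 ^ m := by
    obtain ⟨m, hm⟩ := IsPGroup.iff_card.1 (hS.to_subgroup (zpowers a))
    exact ⟨m, by rw [← Nat.card_zpowers, hm]⟩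
  have hdvd : ∀ k : ℤ, a ^ k = 1 ↔ (2 ^ m : ℤ) ∣ k := by
    intro k
    rw [← orderOf_dvd_iff_zpow_eq_one, hm]; push_cast; rfl
  -- exponents
  have hact : ∀ g : S, ∃ r : ℤ, g * a * g⁻¹ = a ^ r := by
    intro g
    obtain ⟨r, hr⟩ := hAn.conj_mem a (mem_zpowers a) g
    exact ⟨r, hr.symm⟩
  have hact' : ∀ (g : S) (r : ℤ), g * a * g⁻¹ = a ^ r → ∀ k : ℤ, g * a ^ k * g⁻¹ = a ^ (r * k) := by
    intro g r hr k
    rw [← conj_zpow, hr, zpow_mul]
  have hmul : ∀ (g h : S) (r s : ℤ), g * a * g⁻¹ = a ^ r → h * a * h⁻¹ = a ^ s →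
      g * h * a * (g * h)⁻¹ = a ^ (r * s) := by
    intro g h r s hr hs
    calc g * h * a * (g * h)⁻¹ = g * (h * a * h⁻¹) * g⁻¹ := by group
      _ = _ := by rw [hs, hact' g r hr]
  have hcen : ∀ (g : S) (r : ℤ), g * a * g⁻¹ = a ^ r → (g ∈ zpowers a ↔ (2 ^ m : ℤ) ∣ r - 1) := by
    intro g r hr
    rw [← hdvd]
    constructor
    · rintro ⟨k, hk⟩
      have h1 : g * a * g⁻¹ = a := by rw [← hk]; group
      rw [hr] at h1
      rw [zpow_sub, h1, zpow_one, mul_inv_cancel]
    · intro h
      have h1 : a ^ r = a := by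
        have : r = (r - 1) + 1 := by ring
        rw [this, zpow_add, h, one_mul, zpow_one]
      rw [h1] at hr
      rw [← hAC, mem_centralizer_iff]
      rintro _ ⟨k, rfl⟩
      have h2 := hact' g 1 (by rw [hr, zpow_one]) k
      rw [one_mul] at h2
      show a ^ k * g = g * a ^ k
      calc a ^ k * g = (g * a ^ k * g⁻¹) * g := by rw [h2]
        _ = g * a ^ k := by group
  -- it suffices to find an element acting as 1 + 2^(m-1)
  have hfin : ∀ (x : S) (r : ℤ), x * a * x⁻¹ = a ^ r → x ∉ zpowers a → x * x ∈ zpowers a → 3 ≤ m →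
      (2 ^ (m - 1) : ℤ) ∣ r - 1 → False := by
    intro x r hr hx hx2 hm3 hd
    obtain ⟨c, hc⟩ := hd
    obtain ⟨n, rfl⟩ : ∃ n, m = n + 3 := ⟨m - 3, by omega⟩
    have h1 : ¬ (2 : ℤ) ∣ c := by
      rintro ⟨d, rfl⟩
      apply hx
      rw [hcen x r hr, hc]
      exact ⟨d, by rw [show n + 3 - 1 = n + 2 by omega]; ring⟩
    obtain ⟨d, hd⟩ : ∃ d, c = 2 * d + 1 := ⟨c / 2, by omega⟩
    obtain ⟨U, hU1, hU2, hU3⟩ := four_of_act (a := a) (x := x) (M := 2 ^ n) Nat.one_le_two_pow
      (by rw [hm]; ring) hAn hAC hx hx2 (by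
        rw [hr]
        have e : r = 2 ^ (n + 3) * d + (1 + 4 * (2 ^ n : ℤ)) := by
          rw [show n + 3 - 1 = n + 2 by omega, hd] at hc
          have : r = 2 ^ (n + 2) * (2 * d + 1) + 1 := by linarith
          rw [this]; ring
        rw [e, zpow_add, (hdvd _).2 ⟨d, rfl⟩, one_mul]
        push_cast; rfl)
    obtain ⟨u, hu, hu2⟩ := hno U hU1 hU2
    exact hu2 (hU3 u hu)
  -- an element with square outside of A
  by_cases hc1 : ∀ w : S, w * w ∈ zpowers a
  · -- elementary abelian quotient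
    have hex : ∃ x y : S, x ∉ zpowers a ∧ y ∉ zpowers a ∧ x * y ∉ zpowers a := by
      by_contra hall
      push Not at hall
      have h1 : (zpowers a).index ≠ 1 := by omega
      have h2 : (zpowers a).index = 2 := by
        rw [Subgroup.index_eq_two_iff]
        obtain ⟨x, hx⟩ : ∃ x, x ∉ zpowers a := by
          by_contra hcon2
          push Not at hcon2
          exact h1 (Subgroup.index_eq_one.2 (eq_top_iff.2 (fun y _ => hcon2 y)))
        refine ⟨x, fun b => ?_⟩
        by_cases hb : b ∈ zpowers a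
        · right
          exact ⟨hb, fun h => hx ((Subgroup.mul_mem_cancel_left _ hb).1 h)⟩
        · left
          exact ⟨hall b x hb hx, hb⟩
      omega
    obtain ⟨x, y, hx, hy, hxy⟩ := hex
    obtain ⟨r, hr⟩ := hact x
    obtain ⟨s, hs⟩ := hact y
    have hrs := hmul x y r s hr hs
    have hm1 : 1 ≤ m := by
      by_contra h0
      have : m = 0 := by omega
      apply hx; rw [hcen x r hr, this]; simp
    have hr2 : (2 ^ m : ℤ) ∣ r * r - 1 := (hcen (x * x) (r * r) (hmul x x r r hr hr)).1 (hc1 x)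
    have hs2 : (2 ^ m : ℤ) ∣ s * s - 1 := (hcen (y * y) (s * s) (hmul y y s s hs hs)).1 (hc1 y)
    have hm3 : 3 ≤ m := by
      by_contra hlt
      have h1 := sqrt_one hm1 r hr2
      have h2 := sqrt_one hm1 s hs2
      have hrx := (hcen x r hr).not.1 hx
      have hsy := (hcen y s hs).not.1 hy
      have hxy' := (hcen _ _ hrs).not.1 hxy
      obtain rfl | rfl : m = 1 ∨ m = 2 := by omega
      · -- modulo 2
        norm_num at hrx hr2 hsy hs2 hxy'
        have : r * r % 2 = 1 := by omega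
        rcases Int.emod_two_eq_zero_or_one r with h | h
        · rw [Int.mul_emod, h] at this; norm_num at this
        · omega
      · norm_num at hrx hr2 hsy hs2 hxy'
        have h3 : r % 4 = 3 := by
          have h4 : (r % 4) * (r % 4) % 4 = 1 := by rw [← Int.mul_emod]; omega
          have h5 : r % 4 = 0 ∨ r % 4 = 1 ∨ r % 4 = 2 ∨ r % 4 = 3 := by omega
          rcases h5 with h | h | h | h
          · rw [h] at h4; norm_num at h4
          · omega
          · rw [h] at h4; norm_num at h4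
          · exact h
        have h3' : s % 4 = 3 := by
          have h4 : (s % 4) * (s % 4) % 4 = 1 := by rw [← Int.mul_emod]; omega
          have h5 : s % 4 = 0 ∨ s % 4 = 1 ∨ s % 4 = 2 ∨ s % 4 = 3 := by omega
          rcases h5 with h | h | h | h
          · rw [h] at h4; norm_num at h4
          · omega
          · rw [h] at h4; norm_num at h4
          · exact h
        apply hxy'
        have : r * s % 4 = 1 := by rw [Int.mul_emod, h3, h3']; norm_num
        omega
    rcases sqrt_one hm1 r hr2 with h1 | h1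
    · exact hfin x r hr hx (hc1 x) hm3 h1
    rcases sqrt_one hm1 s hs2 with h2 | h2
    · exact hfin y s hs hy (hc1 y) hm3 h2
    refine hfin (x * y) (r * s) hrs hxy (hc1 _) hm3 ?_
    have e : r * s - 1 = (r + 1) * s - (s + 1) := by ring
    rw [e]
    exact dvd_sub (h1.mul_right s) h2
  · push Not at hc1
    obtain ⟨w, hw⟩ := hc1
    -- the last power outside of A
    have hex : ∃ k, w ^ 2 ^ k ∈ zpowers a := by
      obtain ⟨k, hk⟩ := hS w
      exact ⟨k, by rw [hk]; exact one_mem _⟩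
    have hspec := Nat.find_spec hex
    have hk0 : Nat.find hex ≠ 0 := by
      intro h0
      rw [h0, pow_zero, pow_one] at hspec
      exact hw (mul_mem hspec hspec)
    have hk1 : Nat.find hex ≠ 1 := by
      intro h0
      rw [h0, pow_one, pow_two] at hspec
      exact hw hspec
    obtain ⟨k, hk⟩ : ∃ k, Nat.find hex = k + 2 := ⟨Nat.find hex - 2, by omega⟩
    rw [hk] at hspec
    have hnot : w ^ 2 ^ (k + 1) ∉ zpowers a := Nat.find_min hex (by omega)
    obtain ⟨v, hv⟩ : ∃ v, v = w ^ 2 ^ k := ⟨_, rfl⟩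
    have e1 : w ^ 2 ^ (k + 1) = v * v := by rw [hv, ← pow_add, ← two_mul, ← pow_succ']
    have e2 : w ^ 2 ^ (k + 2) = (v * v) * (v * v) := by
      rw [← e1, ← pow_add, ← two_mul, ← pow_succ']
    rw [e1] at hnot
    rw [e2] at hspec
    obtain ⟨r, hr⟩ := hact v
    have hrr := hmul v v r r hr hr
    have h4 := hmul _ _ _ _ hrr hrr
    have h5 := (hcen _ _ h4).1 hspec
    have h6 := (hcen _ _ hrr).not.1 hnot
    have hm1 : 1 ≤ m := by
      by_contra h0
      have : m = 0 := by omega
      apply h6; rw [this]; simp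
    have hrodd : ¬ (2 : ℤ) ∣ r := by
      intro h
      have h7 : (2 : ℤ) ∣ r * r * (r * r) - 1 := (dvd_pow_self 2 (by omega)).trans h5
      have h8 : (2 : ℤ) ∣ r * r * (r * r) := (h.mul_right r).mul_right _
      have h9 := dvd_sub h8 h7
      rw [sub_sub_cancel] at h9
      omega
    have hr8 : (8 : ℤ) ∣ r * r - 1 := by
      obtain ⟨s, hs⟩ : ∃ s, r = 2 * s + 1 := ⟨r / 2, by omega⟩
      have h7 : Even (s * (s + 1)) := Int.even_mul_succ_self s
      obtain ⟨c, hc⟩ := h7
      exact ⟨c, by rw [hs]; linear_combination 4 * hc⟩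
    have hm3 : 3 ≤ m := by
      by_contra hlt
      apply h6
      refine dvd_trans ?_ hr8
      have : (8 : ℤ) = 2 ^ 3 := by norm_num
      rw [this]
      exact pow_dvd_pow 2 (by omega)
    refine hfin (v * v) (r * r) hrr hnot hspec hm3 ?_
    rcases sqrt_one hm1 (r * r) h5 with h7 | h7
    · exact h7
    · exfalso
      have h8 : (4 : ℤ) ∣ r * r + 1 := by
        refine dvd_trans ?_ h7
        have : (4 : ℤ) = 2 ^ 2 := by norm_num
        rw [this]
        exact pow_dvd_pow 2 (by omega)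
      omega

end CfsgL.Fus
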