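import Mathlib

/-! Direct factors of quaternion type in a finite group: the involution of such a factor is moved
by an automorphism only into the complementary factor. -/

set_option autoImplicit false

namespace CfsgL.Fus

open Subgroup

/-- The projections attached to an internal direct product. -/
theorem exists_proj {S : Type*} [Group S] (Q R : Subgroup S)
    (hc : ∀ a ∈ Q, ∀ b ∈ R, a * b = b * a) (hi : Q ⊓ R = ⊥) (hs : Q ⊔ R = ⊤) :
    ∃ π ρ : S →* S, (∀ x, x = π x * ρ x) ∧ (∀ x, π x ∈ Q) ∧ (∀ x, ρ x ∈ R) ∧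
      (∀ x ∈ Q, π x = x) ∧ (∀ x ∈ Q, ρ x = 1) ∧ (∀ x ∈ R, π x = 1) ∧ (∀ x ∈ R, ρ x = x) := by
  have comm : ∀ (m : Q) (n : R), Commute (Q.subtype m) (R.subtype n) :=
    fun m n => hc m.1 m.2 n.1 n.2
  obtain ⟨e, he⟩ : ∃ e : Q × R →* S, ∀ m, e m = m.1.1 * m.2.1 :=
    ⟨MonoidHom.noncommCoprod Q.subtype R.subtype comm, fun m => rfl⟩
  have hinj : Function.Injective e := by
    rw [injective_iff_map_eq_one]
    rintro ⟨q, r⟩ h
    rw [he] at h
    have h1 : (q : S) = (r : S)⁻¹ := eq_inv_of_mul_eq_one_left h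
    have h2 : (q : S) ∈ Q ⊓ R := ⟨q.2, by rw [h1]; exact R.inv_mem r.2⟩
    rw [hi, mem_bot] at h2
    have h3 : (r : S) = 1 := by rw [h2] at h; simpa using h
    ext
    · exact h2
    · exact h3
  have hsurj : Function.Surjective e := by
    intro x
    have hx : x ∈ Q ⊔ R := hs ▸ mem_top x
    have : Q ⊔ R ≤ e.range := by
      rw [sup_le_iff]
      constructor
      · intro q hq; exact ⟨(⟨q, hq⟩, 1), by rw [he]; simp⟩
      · intro q hq; exact ⟨(1, ⟨q, hq⟩), by rw [he]; simp⟩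
    exact this hx
  obtain ⟨E, hE⟩ : ∃ E : Q × R ≃* S, ∀ m, E m = m.1.1 * m.2.1 :=
    ⟨MulEquiv.ofBijective e ⟨hinj, hsurj⟩, fun m => he m⟩
  have hEq : ∀ x (hx : x ∈ Q), E.symm x = (⟨x, hx⟩, 1) := by
    intro x hx
    rw [MulEquiv.symm_apply_eq, hE]; simp
  have hEr : ∀ x (hx : x ∈ R), E.symm x = (1, ⟨x, hx⟩) := by
    intro x hx
    rw [MulEquiv.symm_apply_eq, hE]; simp
  refine ⟨Q.subtype.comp ((MonoidHom.fst Q R).comp E.symm.toMonoidHom),
    R.subtype.comp ((MonoidHom.snd Q R).comp E.symm.toMonoidHom), ?_, ?_, ?_, ?_, ?_, ?_, ?_⟩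
  · intro x
    have := hE (E.symm x)
    rw [MulEquiv.apply_symm_apply] at this
    exact this
  · intro x; exact (E.symm x).1.2
  · intro x; exact (E.symm x).2.2
  · intro x hx
    show ((E.symm x).1 : S) = x
    rw [hEq x hx]
  · intro x hx
    show ((E.symm x).2 : S) = 1
    rw [hEq x hx]; rfl
  · intro x hx
    show ((E.symm x).1 : S) = 1
    rw [hEr x hx]; rfl
  · intro x hx
    show ((E.symm x).2 : S) = x
    rw [hEr x hx]

theorem quat_factor {S : Type*} [Group S] [Finite S] (Q R : Subgroup S)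
    (hc : ∀ a ∈ Q, ∀ b ∈ R, a * b = b * a) (hi : Q ⊓ R = ⊥) (hs : Q ⊔ R = ⊤)
    (hQ2 : IsPGroup 2 Q) (z : S) (hz : z ∈ Q) (hz1 : z ≠ 1) (hz2 : z * z = 1)
    (hu : ∀ q ∈ Q, q * q = 1 → q = 1 ∨ q = z)
    (hcen : ∀ q ∈ Q, (∀ y ∈ Q, q * y = y * q) → q = 1 ∨ q = z)
    (hzc : ∀ y ∈ Q, z * y = y * z)
    (hcom : ∃ a ∈ Q, ∃ b ∈ Q, a * b = z * (b * a)) (φ : MulAut S) : φ z = z ∨ φ z ∈ R := by
  obtain ⟨π, ρ, hx, hπ, hρ, hπQ, hρQ, hπR, hρR⟩ := exists_proj Q R hc hi hs
  have hker : ∀ x, π x = 1 → x ∈ R := by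
    intro x h; rw [hx x, h, one_mul]; exact hρ x
  have hker' : ∀ x, ρ x = 1 → x ∈ Q := by
    intro x h; rw [hx x, h, mul_one]; exact hπ x
  by_cases h1 : π (φ z) = 1
  · right; exact hker _ h1
  left
  have hφz2 : φ z * φ z = 1 := by rw [← map_mul, hz2, map_one]
  have hπz : π (φ z) = z := by
    rcases hu (π (φ z)) (hπ _) (by rw [← map_mul, hφz2, map_one]) with h | h
    · exact absurd h h1
    · exact h
  -- z is central in S
  have hzS : ∀ x, z * x = x * z := by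
    intro x
    rw [hx x, ← mul_assoc, hzc _ (hπ x), mul_assoc, hc z hz _ (hρ x), mul_assoc]
  -- π is injective on φ Q
  have hinj : ∀ q ∈ Q, π (φ q) = 1 → q = 1 := by
    intro q hq h
    by_contra hne
    obtain ⟨k, hk⟩ := hQ2 ⟨q, hq⟩
    have hk' : q ^ 2 ^ k = 1 := congrArg Subtype.val hk
    -- smallest k
    classical
    have hex : ∃ k, q ^ 2 ^ k = 1 := ⟨k, hk'⟩
    have hmin := Nat.find_spec hex
    have hpos : Nat.find hex ≠ 0 := by
      intro h0
      rw [h0, pow_zero, pow_one] at hmin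
      exact hne hmin
    obtain ⟨m, hm⟩ := Nat.exists_eq_succ_of_ne_zero hpos
    have hm1 : q ^ 2 ^ m ≠ 1 := Nat.find_min hex (by omega)
    have hm2 : q ^ 2 ^ m * q ^ 2 ^ m = 1 := by
      rw [hm] at hmin
      rw [← pow_add, ← two_mul, ← pow_succ']
      exact hmin
    rcases hu _ (pow_mem hq _) hm2 with h3 | h3
    · exact hm1 h3
    · apply h1
      rw [← h3, map_pow, map_pow, h, one_pow]
  -- π (φ Q) = Q
  have hsur : ∀ y ∈ Q, ∃ q ∈ Q, π (φ q) = y := by
    intro y hy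
    let f : Q → Q := fun q => ⟨π (φ q), hπ _⟩
    have hf : Function.Injective f := by
      intro q q' h
      have h2 : π (φ q) = π (φ q') := congrArg Subtype.val h
      have h3 : π (φ ((q : S)⁻¹ * q')) = 1 := by
        rw [map_mul, map_mul, map_inv, map_inv, h2, inv_mul_cancel]
      have h4 := hinj _ (mul_mem (inv_mem q.2) q'.2) h3
      exact Subtype.ext (inv_mul_eq_one.1 h4)
    obtain ⟨q, hq⟩ := Finite.surjective_of_injective hf ⟨y, hy⟩
    exact ⟨q, q.2, congrArg Subtype.val hq⟩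
  -- π (φ R) is central in Q
  have hπφR : ∀ x ∈ R, π (φ x) = 1 ∨ π (φ x) = z := by
    intro x hxR
    apply hcen _ (hπ _)
    intro y hy
    obtain ⟨q, hq, rfl⟩ := hsur y hy
    rw [← map_mul, ← map_mul, ← map_mul, ← map_mul, hc q hq x hxR]
  -- ρ (φ R) commutes with φ Q
  have hρφ : ∀ x ∈ R, ∀ q ∈ Q, ρ (φ x) * φ q = φ q * ρ (φ x) := by
    intro x hxR q hq
    have h2 : ρ (φ x) = (π (φ x))⁻¹ * φ x := by
      rw [eq_inv_mul_iff_mul_eq]; exact (hx _).symm
    have h3 : ∀ y, (π (φ x))⁻¹ * y = y * (π (φ x))⁻¹ := by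
      intro y
      rcases hπφR x hxR with h | h
      · rw [h]; simp
      · rw [h, inv_eq_of_mul_eq_one_left hz2, hzS]
    rw [h2, mul_assoc, ← map_mul, ← hc q hq x hxR, map_mul, ← mul_assoc, h3, mul_assoc]
  have hρφ' : ∀ x ∈ R, ∀ q ∈ Q, ρ (φ x) * ρ (φ q) = ρ (φ q) * ρ (φ x) := by
    intro x hxR q hq
    have := congrArg ρ (hρφ x hxR q hq)
    rw [map_mul, map_mul, hρR _ (hρ _)] at this
    exact this
  -- the subgroup ρ (φ R) of R
  obtain ⟨K, hK⟩ : ∃ K : Subgroup S, K = (R.map φ.toMonoidHom).map ρ := ⟨_, rfl⟩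
  have hKmem : ∀ y, y ∈ K ↔ ∃ x ∈ R, ρ (φ x) = y := by
    intro y
    rw [hK, mem_map]
    constructor
    · rintro ⟨w, hw, rfl⟩
      obtain ⟨x, hx, rfl⟩ := hw
      exact ⟨x, hx, rfl⟩
    · rintro ⟨x, hx, rfl⟩
      exact ⟨φ x, ⟨x, hx, rfl⟩, rfl⟩
  have hKR : K ≤ R := by
    intro y hy
    obtain ⟨x, -, rfl⟩ := (hKmem y).1 hy
    exact hρ _
  -- index at most two
  have hidx : Nat.card R ≤ Nat.card K * 2 := by
    let f : R →* S := (ρ.comp φ.toMonoidHom).comp R.subtype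
    have hfr : f.range = K := by
      ext y
      rw [hKmem]
      constructor
      · rintro ⟨x, rfl⟩; exact ⟨x, x.2, rfl⟩
      · rintro ⟨x, hx, rfl⟩; exact ⟨⟨x, hx⟩, rfl⟩
    have h2 : Nat.card f.ker * Nat.card f.range = Nat.card R := by
      rw [← Subgroup.index_ker f, Subgroup.card_mul_index]
    have h3 : Nat.card f.ker ≤ 2 := by
      have h4 : Nat.card f.ker ≤ Nat.card ({1, z} : Set S) := by
        apply Nat.card_le_card_of_injective (fun x : f.ker => (⟨φ ((x : R) : S), by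
          have hx1 : ρ (φ ((x : R) : S)) = 1 := x.2
          have hx2 := hx (φ ((x : R) : S))
          rw [hx1, mul_one] at hx2
          rw [hx2]
          exact hπφR _ (x : R).2⟩ : ({1, z} : Set S)))
        intro x y hxy
        have h5 : φ ((x : R) : S) = φ ((y : R) : S) := congrArg Subtype.val hxy
        exact Subtype.ext (Subtype.ext (φ.injective h5))
      refine h4.trans ?_
      rw [Nat.card_coe_set_eq]
      exact (Set.ncard_insert_le _ _).trans (by rw [Set.ncard_singleton])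
    rw [← h2, hfr]
    nlinarith [Nat.zero_le (Nat.card K)]
  have hmul : ∀ u ∈ R, ∀ v ∈ R, u ∉ K → v ∉ K → u * v ∈ K := by
    intro u hu' v hv' hun hvn
    have h2 : (K.subgroupOf R).index ≤ 2 := by
      have h3 : Nat.card (K.subgroupOf R) * (K.subgroupOf R).index = Nat.card R :=
        Subgroup.card_mul_index _
      rw [Nat.card_congr (Subgroup.subgroupOfEquivOfLe hKR).toEquiv] at h3
      have h4 : 0 < Nat.card K := Nat.card_pos
      by_contra hcon
      push Not at hcon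
      nlinarith
    have h3 : (K.subgroupOf R).index ≠ 0 := Subgroup.index_ne_zero_of_finite
    have h4 : (K.subgroupOf R).index ≠ 1 := by
      rw [Ne, Subgroup.index_eq_one]
      intro h5
      have : (⟨u, hu'⟩ : R) ∈ K.subgroupOf R := h5 ▸ mem_top _
      exact hun (mem_subgroupOf.1 this)
    have h5 : (K.subgroupOf R).index = 2 := by omega
    have h6 := (Subgroup.mul_mem_iff_of_index_two h5 (a := ⟨u, hu'⟩) (b := ⟨v, hv'⟩)).2
      ⟨fun h => absurd (mem_subgroupOf.1 h) hun, fun h => absurd (mem_subgroupOf.1 h) hvn⟩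
    exact mem_subgroupOf.1 h6
  -- conclusion
  obtain ⟨a, ha, b, hb, hab⟩ := hcom
  have hcuv : ρ (φ a) * ρ (φ b) = ρ (φ b) * ρ (φ a) := by
    by_cases hua : ρ (φ a) ∈ K
    · obtain ⟨x, hxR, hxe⟩ := (hKmem _).1 hua
      rw [← hxe]; exact hρφ' x hxR b hb
    by_cases hvb : ρ (φ b) ∈ K
    · obtain ⟨x, hxR, hxe⟩ := (hKmem _).1 hvb
      rw [← hxe]; exact (hρφ' x hxR a ha).symm
    have h2 := hmul _ (hρ _) _ (hρ _) hua hvb
    obtain ⟨x, hxR, hxe⟩ := (hKmem _).1 h2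
    have h3 := hρφ' x hxR b hb
    rw [hxe] at h3
    rw [mul_assoc, ← mul_assoc (ρ (φ b))] at h3
    have h4 : ρ (φ a) * ρ (φ b) * ρ (φ b) = ρ (φ b) * ρ (φ a) * ρ (φ b) := by
      rw [mul_assoc]; rw [← h3]
    exact mul_right_cancel h4
  have hρz : ρ (φ z) = 1 := by
    have h2 : ρ (φ (a * b)) = ρ (φ (z * (b * a))) := by rw [hab]
    rw [map_mul, map_mul, map_mul, map_mul, map_mul, map_mul, hcuv] at h2
    exact (mul_eq_right.1 h2.symm)
  rw [hx (φ z), hρz, mul_one, hπz]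

end CfsgL.Fus
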