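import Mathlib
import Cfsg.Agent.S0215
import Cfsg.Agent.H3.Fusion
import Cfsg.Agent.H3.Frob
import Cfsg.Agent.H1.Syl

/-! Tools for involutions in finite simple groups. -/

set_option autoImplicit false

namespace CfsgL.Fus

open Subgroup
open scoped Pointwise

variable {G : Type*} [Group G]

theorem simple_no_index_two [hs : IsSimpleGroup G] (hG : ¬ IsMulCommutative G) (M : Subgroup G)
    (hM : M.Normal) : M.index ≠ 2 := by
  intro h
  rcases hs.eq_bot_or_eq_top_of_normal M hM with h1 | h1
  · apply hG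
    rw [h1, Subgroup.index_bot] at h
    haveI : Fact (Nat.Prime 2) := ⟨Nat.prime_two⟩
    haveI : IsCyclic G := isCyclic_of_prime_card h
    exact inferInstance
  · rw [h1, Subgroup.index_top] at h; omega

theorem simple_center [hs : IsSimpleGroup G] (hG : ¬ IsMulCommutative G) (z : G)
    (hz : ∀ g, g * z = z * g) : z = 1 := by
  rcases hs.eq_bot_or_eq_top_of_normal (Subgroup.center G) inferInstance with h2 | h2
  · have : z ∈ Subgroup.center G := Subgroup.mem_center_iff.2 hz
    rw [h2, Subgroup.mem_bot] at this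
    exact this
  · exfalso; apply hG
    refine ⟨⟨fun a b => ?_⟩⟩
    have h3 : a ∈ Subgroup.center G := h2 ▸ Subgroup.mem_top a
    exact (Subgroup.mem_center_iff.1 h3 b).symm

/-- Z* for simple groups. -/
theorem simple_not_isolated [Finite G] [hs : IsSimpleGroup G] (hG : ¬ IsMulCommutative G)
    (P : Sylow 2 G) (u : G) (hu : orderOf u = 2) (huP : u ∈ P) :
    ∃ g : G, g * u * g⁻¹ ∈ P ∧ g * u * g⁻¹ ≠ u := by
  by_contra hcon
  push Not at hcon
  obtain ⟨M, hMn, hModd, hM⟩ := Cfsg.Agent.S0215.result P u hu huP hcon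
  rcases hs.eq_bot_or_eq_top_of_normal M hMn with h | h
  · have h1 := simple_center hG u (fun g => by
      have h1 := hM g
      rw [h, Subgroup.mem_bot] at h1
      have h2 : u * g * u⁻¹ = g := mul_inv_eq_one.1 h1
      calc g * u = (u * g * u⁻¹) * u := by rw [h2]
        _ = u * g := by group)
    rw [h1, orderOf_one] at hu
    omega
  · rw [h] at hModd
    rw [Subgroup.card_top] at hModd
    have h1 : 2 ∣ Nat.card G := hu ▸ orderOf_dvd_natCard u
    exact (Nat.not_even_iff_odd.2 hModd) (even_iff_two_dvd.2 h1)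

/-- Thompson transfer for simple groups. -/
theorem simple_transfer [Finite G] [hs : IsSimpleGroup G] (hG : ¬ IsMulCommutative G)
    (P : Sylow 2 G) (Q : Subgroup G) (hQi : Q.relIndex (P : Subgroup G) = 2) (u : G)
    (hu : orderOf u = 2) (huP : u ∈ P) : ∃ g : G, g * u * g⁻¹ ∈ Q := by
  by_contra hcon
  push Not at hcon
  obtain ⟨M, hM1, hM2, -⟩ := CfsgH3.thompson_transfer_invol P Q hQi u hu huP hcon
  exact simple_no_index_two hG M hM1 hM2

theorem mem_sylow_of_commute {p : ℕ} [Fact p.Prime] (P : Sylow p G) (t : G)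
    (ht : IsPGroup p (zpowers t)) (hc : ∀ x ∈ P, x * t = t * x) : t ∈ P := by
  have h2 := IsPGroup.inf_normalizer_sylow ht P
  have h3 : t ∈ Subgroup.normalizer (P : Set G) := by
    change t ∈ Subgroup.normalizer ((P : Subgroup G) : Set G)
    rw [Subgroup.mem_normalizer_iff]
    intro x
    constructor
    · intro hx
      have : t * x * t⁻¹ = x := by rw [← hc x hx]; group
      rw [this]; exact hx
    · intro hx
      have h4 := hc _ hx
      have : t * x * t⁻¹ = x := by
        have h5 : t * x = t * (t * x * t⁻¹) := by rw [← h4]; group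
        exact (mul_left_cancel h5).symm
      rw [this] at hx; exact hx
  have h6 : t ∈ Subgroup.zpowers t ⊓ (P : Subgroup G) := h2 ▸ ⟨Subgroup.mem_zpowers t, h3⟩
  exact h6.2

theorem sq_of_order {u : G} (hu : orderOf u = 2) : u * u = 1 := by
  rw [← pow_two, ← hu, pow_orderOf_eq_one]

theorem order_of_sq {u : G} (h : u * u = 1) (h1 : u ≠ 1) : orderOf u = 2 :=
  haveI : Fact (Nat.Prime 2) := ⟨Nat.prime_two⟩
  orderOf_eq_prime (by rw [pow_two]; exact h) h1

theorem order_conj {u : G} (hu : orderOf u = 2) (g : G) : orderOf (g * u * g⁻¹) = 2 := by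
  apply order_of_sq
  · calc g * u * g⁻¹ * (g * u * g⁻¹) = g * (u * u) * g⁻¹ := by group
      _ = 1 := by rw [sq_of_order hu]; group
  · intro h
    have : u = 1 := by
      calc u = g⁻¹ * (g * u * g⁻¹) * g := by group
        _ = 1 := by rw [h]; group
    rw [this, orderOf_one] at hu
    omega

/-- every 2-subgroup lies in a Sylow subgroup; sets of elements conjugate into a given one -/
theorem conj_into_sylow [Finite G] {p : ℕ} [Fact p.Prime] (P : Sylow p G) (H : Subgroup G)
    (hH : IsPGroup p H) : ∃ g : G, ∀ h ∈ H, g * h * g⁻¹ ∈ P := by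
  obtain ⟨R, hR⟩ := hH.exists_le_sylow
  obtain ⟨g, hg⟩ := MulAction.exists_smul_eq G R P
  refine ⟨g, fun h hh => ?_⟩
  rw [← hg]
  change g * h * g⁻¹ ∈ ((g • R : Sylow p G) : Subgroup G)
  rw [Sylow.coe_subgroup_smul, Subgroup.mem_pointwise_smul_iff_inv_smul_mem]
  have : (MulAut.conj g)⁻¹ • (g * h * g⁻¹) = h := by
    rw [← map_inv, MulAut.smul_def, MulAut.conj_apply]; group
  rw [this]; exact hR hh

end CfsgL.Fus
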