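import Cfsg.Agent.L.Fus.SimpleTools
import Cfsg.Agent.L.Fus.NormalFour
import Cfsg.Agent.H3.FourGrp

/-! Involutions of a simple group with at most three involutions in the centralizer. -/

set_option autoImplicit false

namespace CfsgL.Fus

open Subgroup
open scoped Pointwise

variable {G : Type*} [Group G]

/-- `x` has at most three involutions in its centralizer -/
def Few (x : G) : Prop := ∀ a b c d : G, orderOf a = 2 → orderOf b = 2 → orderOf c = 2 →
  orderOf d = 2 → a * x = x * a → b * x = x * b → c * x = x * c → d * x = x * d →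
  a ≠ b → a ≠ c → b ≠ c → d = a ∨ d = b ∨ d = c

theorem Few.conj {x : G} (h : Few x) (g : G) : Few (g * x * g⁻¹) := by
  intro a b c d ha hb hc hd ha' hb' hc' hd' hab hac hbc
  have key : ∀ u : G, u * (g * x * g⁻¹) = g * x * g⁻¹ * u → (g⁻¹ * u * g) * x = x * (g⁻¹ * u * g) := by
    intro u hu
    calc (g⁻¹ * u * g) * x = g⁻¹ * (u * (g * x * g⁻¹)) * g := by group
      _ = g⁻¹ * (g * x * g⁻¹ * u) * g := by rw [hu]
      _ = _ := by group
  have ho : ∀ u : G, orderOf u = 2 → orderOf (g⁻¹ * u * g) = 2 := by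
    intro u hu
    have := order_conj hu g⁻¹
    rwa [inv_inv] at this
  have hinj : ∀ u v : G, g⁻¹ * u * g = g⁻¹ * v * g → u = v := by
    intro u v huv
    calc u = g * (g⁻¹ * u * g) * g⁻¹ := by group
      _ = g * (g⁻¹ * v * g) * g⁻¹ := by rw [huv]
      _ = v := by group
  rcases h _ _ _ _ (ho a ha) (ho b hb) (ho c hc) (ho d hd) (key a ha') (key b hb') (key c hc')
    (key d hd') (fun h => hab (hinj _ _ h)) (fun h => hac (hinj _ _ h)) (fun h => hbc (hinj _ _ h))
    with h1 | h1 | h1
  · left; exact hinj _ _ h1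
  · right; left; exact hinj _ _ h1
  · right; right; exact hinj _ _ h1

/-- The final contradiction: a normal four-group containing a conjugate of `x`. -/
theorem final [Finite G] [hs : IsSimpleGroup G] (hG : ¬ IsMulCommutative G) (S : Sylow 2 G)
    (x z : G) (hx : orderOf x = 2) (hz : orderOf z = 2) (hxS : x ∈ S) (hzS : z ∈ S)
    (hzc : ∀ s ∈ S, s * z = z * s) (hfew : Few x) (hnc : ∀ g, g * x * g⁻¹ ≠ z)
    (hUn : ∀ s ∈ S, s * x * s⁻¹ = x ∨ s * x * s⁻¹ = x * z)
    (hidx : ∃ s ∈ S, s * x ≠ x * s) : False := by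
  classical
  haveI : Fact (Nat.Prime 2) := ⟨Nat.prime_two⟩
  have hx2 := sq_of_order hx
  have hz2 := sq_of_order hz
  have hx1 : x ≠ 1 := by rintro rfl; rw [orderOf_one] at hx; omega
  have hz1 : z ≠ 1 := by rintro rfl; rw [orderOf_one] at hz; omega
  have hxz : x ≠ z := by intro h; exact hnc 1 (by simpa using h)
  have hcxz : x * z = z * x := hzc x hxS
  have hxzS : x * z ∈ S := mul_mem hxS hzS
  have hxz2 : x * z * (x * z) = 1 := by
    calc x * z * (x * z) = x * (z * x) * z := by group
      _ = x * (x * z) * z := by rw [hcxz]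
      _ = (x * x) * (z * z) := by group
      _ = 1 := by rw [hx2, hz2, one_mul]
  have hxz1 : x * z ≠ 1 := by
    intro h
    apply hxz
    rw [eq_inv_of_mul_eq_one_left h, inv_eq_of_mul_eq_one_right hz2]
  have hxzo : orderOf (x * z) = 2 := order_of_sq hxz2 hxz1
  -- involutions commuting with x
  have hinv : ∀ u : G, orderOf u = 2 → u * x = x * u → u = x ∨ u = z ∨ u = x * z := by
    intro u hu hux
    refine hfew x z (x * z) u hx hz hxzo hu rfl hcxz.symm ?_ hux hxz ?_ ?_
    · rw [mul_assoc, ← hcxz]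
    · intro h; exact hz1 (mul_eq_left.1 h.symm)
    · intro h; exact hx1 (mul_eq_right.1 h.symm)
  obtain ⟨s₀, hs₀, hs₀x⟩ := hidx
  have hs₀' : s₀ * x * s₀⁻¹ = x * z := by
    rcases hUn s₀ hs₀ with h | h
    · exfalso; apply hs₀x
      calc s₀ * x = (s₀ * x * s₀⁻¹) * s₀ := by group
        _ = x * s₀ := by rw [h]
    · exact h
  have hnc' : ∀ g, g * (x * z) * g⁻¹ ≠ z := by
    intro g h
    apply hnc (g * s₀)
    rw [mul_inv_rev]
    calc g * s₀ * x * (s₀⁻¹ * g⁻¹) = g * (s₀ * x * s₀⁻¹) * g⁻¹ := by group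
      _ = z := by rw [hs₀', h]
  -- M = C_S(x)
  let M : Subgroup G := (S : Subgroup G) ⊓ centralizer {x}
  have hMm : ∀ u, u ∈ M ↔ u ∈ S ∧ u * x = x * u := by
    intro u
    show u ∈ (S : Subgroup G) ∧ u ∈ centralizer ({x} : Set G) ↔ _
    rw [mem_centralizer_singleton_iff]
    exact Iff.rfl
  -- index two
  have hMmul : ∀ s ∈ S, ∀ t ∈ S, s ∉ M → t ∉ M → s * t ∈ M := by
    intro s hs t ht hsM htM
    rw [hMm] at hsM htM
    rw [hMm]
    refine ⟨mul_mem hs ht, ?_⟩
    have h1 : s * x * s⁻¹ = x * z := by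
      rcases hUn s hs with h | h
      · exfalso; apply hsM; refine ⟨hs, ?_⟩
        calc s * x = (s * x * s⁻¹) * s := by group
          _ = x * s := by rw [h]
      · exact h
    have h2 : t * x * t⁻¹ = x * z := by
      rcases hUn t ht with h | h
      · exfalso; apply htM; refine ⟨ht, ?_⟩
        calc t * x = (t * x * t⁻¹) * t := by group
          _ = x * t := by rw [h]
      · exact h
    have h3 : s * t * x * (s * t)⁻¹ = x := by
      calc s * t * x * (s * t)⁻¹ = s * (t * x * t⁻¹) * s⁻¹ := by group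
        _ = (s * x * s⁻¹) * (s * z * s⁻¹) := by rw [h2]; group
        _ = x * z * z := by
          rw [h1]
          have : s * z * s⁻¹ = z := by rw [hzc s hs]; group
          rw [this]
        _ = x := by rw [mul_assoc, hz2, mul_one]
    calc s * t * x = (s * t * x * (s * t)⁻¹) * (s * t) := by group
      _ = x * (s * t) := by rw [h3]
  have hsqM : ∀ s ∈ S, s * s ∈ M := by
    intro s hs
    by_cases h : s ∈ M
    · exact mul_mem h h
    · exact hMmul s hs s hs h h
  have hMinv : ∀ u ∈ M, orderOf u = 2 → u = x ∨ u = z ∨ u = x * z := by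
    intro u hu ho
    exact hinv u ho ((hMm u).1 hu).2
  have hMz : ∀ u ∈ M, ∀ g, g * z * g⁻¹ = u → u = z := by
    intro u hu g hg
    rcases hMinv u hu (hg ▸ order_conj hz g) with h | h | h
    · exfalso; apply hnc g⁻¹
      rw [inv_inv, ← h, ← hg]; group
    · exact h
    · exfalso; apply hnc' g⁻¹
      rw [inv_inv, ← h, ← hg]; group
  -- z is not isolated
  obtain ⟨h₀, hwS, hwz⟩ := simple_not_isolated hG S z hz hzS
  obtain ⟨w, hw⟩ : ∃ w, w = h₀ * z * h₀⁻¹ := ⟨_, rfl⟩
  rw [← hw] at hwS hwz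
  have hwo : orderOf w = 2 := hw ▸ order_conj hz h₀
  have hw2 := sq_of_order hwo
  have hwM : w ∉ M := fun h => hwz (hMz w h h₀ hw.symm)
  have hwx : w * x * w⁻¹ = x * z := by
    rcases hUn w hwS with h | h
    · exfalso; apply hwM; rw [hMm]; refine ⟨hwS, ?_⟩
      calc w * x = (w * x * w⁻¹) * w := by group
        _ = x * w := by rw [h]
    · exact h
  have hwi : w⁻¹ = w := inv_eq_of_mul_eq_one_right hw2
  have hwzc : w * z = z * w := hzc w hwS
  -- D = C_M(w) has only the elements 1 and z
  have hD : ∀ d ∈ M, d * w = w * d → d = 1 ∨ d = z := by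
    intro d hd hdw
    have hDinv : ∀ u ∈ M, u * w = w * u → u * u = 1 → u = 1 ∨ u = z := by
      intro u hu huw hu2
      by_cases h1 : u = 1
      · left; exact h1
      right
      have hconj : w * u * w⁻¹ = u := by rw [← huw]; group
      rcases hMinv u hu (order_of_sq hu2 h1) with h | h | h
      · exfalso
        rw [h, hwx] at hconj
        exact hz1 (mul_eq_left.1 hconj)
      · exact h
      · exfalso
        have e : w * (x * z) * w⁻¹ = x := by
          calc w * (x * z) * w⁻¹ = (w * x * w⁻¹) * (w * z * w⁻¹) := by group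
            _ = x * z * z := by
              rw [hwx]
              have : w * z * w⁻¹ = z := by rw [hwzc]; group
              rw [this]
            _ = x := by rw [mul_assoc, hz2, mul_one]
        rw [h, e] at hconj
        exact hz1 (mul_eq_left.1 hconj.symm)
    by_contra hcon
    -- some element c with c * c = z
    obtain ⟨c, hcM, hcw, hcz⟩ : ∃ c ∈ M, c * w = w * c ∧ c * c = z := by
      have hex : ∃ k, d ^ 2 ^ k = 1 := by
        obtain ⟨k, hk⟩ := S.isPGroup' ⟨d, ((hMm d).1 hd).1⟩
        exact ⟨k, congrArg Subtype.val hk⟩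
      have hspec := Nat.find_spec hex
      have hk0 : Nat.find hex ≠ 0 := by
        intro h0; rw [h0, pow_zero, pow_one] at hspec
        exact hcon (Or.inl hspec)
      have hk1 : Nat.find hex ≠ 1 := by
        intro h0; rw [h0, pow_one, pow_two] at hspec
        exact hcon (hDinv d hd hdw hspec)
      obtain ⟨k, hk⟩ : ∃ k, Nat.find hex = k + 2 := ⟨Nat.find hex - 2, by omega⟩
      rw [hk] at hspec
      have hnot : d ^ 2 ^ (k + 1) ≠ 1 := Nat.find_min hex (by omega)
      have e1 : d ^ 2 ^ (k + 1) = d ^ 2 ^ k * d ^ 2 ^ k := by rw [← pow_add, ← two_mul, ← pow_succ']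
      have e2 : d ^ 2 ^ (k + 2) = d ^ 2 ^ (k + 1) * d ^ 2 ^ (k + 1) := by
        rw [← pow_add, ← two_mul, ← pow_succ']
      have hcomm : ∀ n : ℕ, d ^ n * w = w * d ^ n := fun n => (Commute.pow_left (show Commute d w from hdw) n)
      refine ⟨d ^ 2 ^ k, pow_mem hd _, hcomm _, ?_⟩
      rw [← e1]
      rcases hDinv _ (pow_mem hd _) (hcomm _) (e2 ▸ hspec) with h | h
      · exact absurd h hnot
      · exact h
    -- conjugate C_S(w) into S so that w goes to z
    have hzSy : ∀ s ∈ S, s * z = z * s := hzc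
    -- Sylow subgroup of C(w)
    let C : Subgroup G := centralizer {w}
    have hCm : ∀ u, u ∈ C ↔ u * w = w * u := fun u => mem_centralizer_singleton_iff
    -- h₀ S h₀⁻¹ ≤ C
    have hcong : ∀ s ∈ S, h₀ * s * h₀⁻¹ ∈ C := by
      intro s hs
      rw [hCm, hw]
      calc h₀ * s * h₀⁻¹ * (h₀ * z * h₀⁻¹) = h₀ * (s * z) * h₀⁻¹ := by group
        _ = h₀ * (z * s) * h₀⁻¹ := by rw [hzc s hs]
        _ = _ := by group
    let R : Sylow 2 G := h₀ • S
    have hRm : ∀ u, u ∈ R ↔ h₀⁻¹ * u * h₀ ∈ S := by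
      intro u
      change u ∈ ((h₀ • S : Sylow 2 G) : Subgroup G) ↔ _
      rw [Sylow.coe_subgroup_smul, Subgroup.mem_pointwise_smul_iff_inv_smul_mem]
      simp only [MulAut.smul_def, ← map_inv, MulAut.conj_apply, inv_inv]
      exact Iff.rfl
    have hRC : (R : Subgroup G) ≤ C := by
      intro u hu
      have h1 := hcong _ ((hRm u).1 hu)
      have e : h₀ * (h₀⁻¹ * u * h₀) * h₀⁻¹ = u := by group
      rwa [e] at h1
    let RC : Sylow 2 C := R.subtype hRC
    -- the 2-subgroup C_S(w)
    let E : Subgroup C := ((S : Subgroup G) ⊓ C).subgroupOf C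
    have hE : IsPGroup 2 E := by
      have h1 : IsPGroup 2 ((S : Subgroup G) ⊓ C : Subgroup G) := S.isPGroup'.to_le inf_le_left
      exact h1.comap_of_injective C.subtype C.subtype_injective
    obtain ⟨k, hk⟩ := conj_into_sylow RC E hE
    have hcS : c ∈ S := ((hMm c).1 hcM).1
    have hcC : c ∈ C := (hCm c).2 hcw
    have hc' : (k : G) * c * (k : G)⁻¹ ∈ R := by
      have h1 := hk ⟨c, hcC⟩ (by
        show c ∈ (S : Subgroup G) ⊓ C
        exact ⟨hcS, hcC⟩)
      exact h1
    rw [hRm] at hc'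
    obtain ⟨m, hm⟩ : ∃ m, m = h₀⁻¹ * (k : G) := ⟨_, rfl⟩
    have hmc : m * c * m⁻¹ ∈ S := by
      have : m * c * m⁻¹ = h₀⁻¹ * ((k : G) * c * (k : G)⁻¹) * h₀ := by rw [hm]; group
      rw [this]; exact hc'
    have hmw : m * w * m⁻¹ = z := by
      have h1 : (k : G) * w = w * k := (hCm k).1 k.2
      calc m * w * m⁻¹ = h₀⁻¹ * ((k : G) * w * (k : G)⁻¹) * h₀ := by rw [hm]; group
        _ = h₀⁻¹ * w * h₀ := by rw [h1]; group
        _ = z := by rw [hw]; group
    have hmz : (m * c * m⁻¹) * (m * c * m⁻¹) = m * z * m⁻¹ := by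
      calc (m * c * m⁻¹) * (m * c * m⁻¹) = m * (c * c) * m⁻¹ := by group
        _ = _ := by rw [hcz]
    have h2 : m * z * m⁻¹ ∈ M := by rw [← hmz]; exact hsqM _ hmc
    have h3 : m * z * m⁻¹ = z := hMz _ h2 m rfl
    apply hwz
    have h4 : m * w * m⁻¹ = m * z * m⁻¹ := by rw [hmw, h3]
    calc w = m⁻¹ * (m * w * m⁻¹) * m := by group
      _ = m⁻¹ * (m * z * m⁻¹) * m := by rw [h4]
      _ = z := by group
  -- M has only four elements
  have hwxz : w * (x * z) * w⁻¹ = x := by
    calc w * (x * z) * w⁻¹ = (w * x * w⁻¹) * (w * z * w⁻¹) := by group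
      _ = x * z * z := by
        rw [hwx]
        have : w * z * w⁻¹ = z := by rw [hwzc]; group
        rw [this]
      _ = x := by rw [mul_assoc, hz2, mul_one]
  have hM4 : ∀ u ∈ M, u ∈ CfsgH3.fourSub x z hx2 hz2 hcxz := by
    by_contra hcon
    push Not at hcon
    obtain ⟨n₀, hn₀M, hn₀⟩ := hcon
    -- work in the group S
    let SS := (S : Subgroup G)
    let U : Subgroup SS := (CfsgH3.fourSub x z hx2 hz2 hcxz).subgroupOf SS
    have hUm : ∀ u : SS, u ∈ U ↔ (u : G) = 1 ∨ (u : G) = x ∨ (u : G) = z ∨ (u : G) = x * z := fun u => Iff.rfl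
    haveI hUnorm : U.Normal := by
      refine ⟨fun u hu g => ?_⟩
      rw [hUm] at hu ⊢
      have e : ((g * u * g⁻¹ : SS) : G) = g * u * (g : G)⁻¹ := rfl
      have hgz : (g : G) * z * (g : G)⁻¹ = z := by rw [hzc g g.2]; group
      rw [e]
      rcases hu with h | h | h | h
      · left; rw [h]; group
      · rw [h]
        rcases hUn g g.2 with h' | h'
        · right; left; exact h'
        · right; right; right; exact h'
      · right; right; left; rw [h, hgz]
      · have e2 : (g : G) * (x * z) * (g : G)⁻¹ = (g * x * (g : G)⁻¹) * (g * z * (g : G)⁻¹) := by group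
        rw [h, e2, hgz]
        rcases hUn g g.2 with h' | h'
        · right; right; right; rw [h']
        · right; left; rw [h', mul_assoc, hz2, mul_one]
    haveI hMnorm : (M.subgroupOf SS).Normal := by
      refine ⟨fun u hu g => ?_⟩
      rw [mem_subgroupOf] at hu ⊢
      have e : ((g * u * g⁻¹ : SS) : G) = g * u * (g : G)⁻¹ := rfl
      rw [e, hMm]
      rw [hMm] at hu
      refine ⟨mul_mem (mul_mem g.2 hu.1) (inv_mem g.2), ?_⟩
      have h1 : (g : G)⁻¹ * x * g = x ∨ (g : G)⁻¹ * x * g = x * z := by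
        have := hUn (g : G)⁻¹ (inv_mem g.2)
        rwa [inv_inv] at this
      have hcx : ∀ v : G, (u : G) * v = v * u → (g : G)⁻¹ * x * g = v → g * u * (g : G)⁻¹ * x = x * (g * u * (g : G)⁻¹) := by
        intro v hv hgv
        calc g * u * (g : G)⁻¹ * x = g * (u * ((g : G)⁻¹ * x * g)) * (g : G)⁻¹ := by group
          _ = g * (((g : G)⁻¹ * x * g) * u) * (g : G)⁻¹ := by rw [hgv, hv]
          _ = _ := by group
      rcases h1 with h | h
      · exact hcx x hu.2 h
      · refine hcx (x * z) ?_ h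
        rw [← mul_assoc, hu.2, mul_assoc, hzc u hu.1, ← mul_assoc]
    have hne : (M.subgroupOf SS).map (QuotientGroup.mk' U) ≠ ⊥ := by
      intro h
      rw [Subgroup.map_eq_bot_iff, QuotientGroup.ker_mk'] at h
      exact hn₀ (h (show (⟨n₀, ((hMm n₀).1 hn₀M).1⟩ : SS) ∈ M.subgroupOf SS from hn₀M))
    haveI : ((M.subgroupOf SS).map (QuotientGroup.mk' U)).Normal :=
      hMnorm.map _ (QuotientGroup.mk'_surjective U)
    have hQ : IsPGroup 2 (SS ⧸ U) := S.isPGroup'.to_quotient U
    obtain ⟨q, hq1, hq2, hq3⟩ := CfsgH3.exists_center_mem hQ _ hne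
    obtain ⟨n, hnM, hnq⟩ := hq1
    have hnU : n ∉ U := by
      intro h
      have : q = 1 := by
        rw [← hnq]; exact (QuotientGroup.eq_one_iff n).2 h
      rw [this, orderOf_one] at hq3
      omega
    have hn2 : n * n ∈ U := by
      rw [← QuotientGroup.eq_one_iff]
      have : q * q = 1 := sq_of_order hq3
      rw [← hnq] at this
      exact this
    have hnc2 : ∀ s : SS, s * n * s⁻¹ * n⁻¹ ∈ U := by
      intro s
      rw [← QuotientGroup.eq_one_iff]
      have h1 := mem_center_iff.1 hq2 (QuotientGroup.mk' U s)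
      rw [← hnq] at h1
      have h2 : ((s * n * s⁻¹ * n⁻¹ : SS) : SS ⧸ U) = (QuotientGroup.mk' U s) * (QuotientGroup.mk' U n) *
        (QuotientGroup.mk' U s)⁻¹ * (QuotientGroup.mk' U n)⁻¹ := rfl
      rw [h2, h1]; group
    have hnM' : (n : G) ∈ M := hnM
    have hnS := n.2
    have hnx : (n : G) * x = x * n := ((hMm n).1 hnM').2
    have hnz : (n : G) * z = z * n := hzc n hnS
    obtain ⟨u, hu, hun⟩ : ∃ u, (u = 1 ∨ u = x ∨ u = z ∨ u = x * z) ∧ w * n * w⁻¹ = u * n := by
      refine ⟨w * n * w⁻¹ * (n : G)⁻¹, (hUm _).1 (hnc2 ⟨w, hwS⟩), by group⟩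
    have hfix : ∀ y, y ∈ M → w * y * w⁻¹ = y → y = 1 ∨ y = z := by
      intro y hy hwy
      apply hD y hy
      calc y * w = (w * y * w⁻¹) * w := by rw [hwy]
        _ = w * y := by group
    have hn2' : (n : G) * n = z := by
      have h1 : w * ((n : G) * n) * w⁻¹ = n * n := by
        calc w * ((n : G) * n) * w⁻¹ = (w * n * w⁻¹) * (w * n * w⁻¹) := by group
          _ = (u * n) * (u * n) := by rw [hun]
          _ = n * n := by
            rcases hu with rfl | rfl | rfl | rfl
            · simp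
            · calc u * (n : G) * (u * n) = u * (n * u) * n := by group
                _ = u * (u * n) * n := by rw [hnx]
                _ = (u * u) * (n * n) := by group
                _ = n * n := by rw [hx2, one_mul]
            · calc u * (n : G) * (u * n) = u * (n * u) * n := by group
                _ = u * (u * n) * n := by rw [hnz]
                _ = (u * u) * (n * n) := by group
                _ = n * n := by rw [hz2, one_mul]
            · have e3 : (n : G) * (x * z) = (x * z) * n := by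
                rw [← mul_assoc, hnx, mul_assoc, hnz, ← mul_assoc]
              calc x * z * (n : G) * (x * z * n) = x * z * (n * (x * z)) * n := by group
                _ = x * z * ((x * z) * n) * n := by rw [e3]
                _ = (x * z * (x * z)) * (n * n) := by group
                _ = n * n := by rw [hxz2, one_mul]
      rcases hfix _ (mul_mem hnM' hnM') h1 with h | h
      · exfalso
        by_cases h1n : (n : G) = 1
        · exact hnU ((hUm n).2 (Or.inl h1n))
        · apply hnU
          rw [hUm]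
          rcases hMinv n hnM' (order_of_sq h h1n) with h' | h' | h'
          · right; left; exact h'
          · right; right; left; exact h'
          · right; right; right; exact h'
      · exact h
    have hww : ∀ y : G, w * (w * y * w⁻¹) * w⁻¹ = y := by
      intro y
      calc w * (w * y * w⁻¹) * w⁻¹ = (w * w) * y * (w * w)⁻¹ := by group
        _ = y := by rw [hw2]; group
    rcases hu with rfl | rfl | rfl | rfl
    · rw [one_mul] at hun
      rcases hfix n hnM' hun with h | h
      · exact hnU ((hUm n).2 (Or.inl h))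
      · exact hnU ((hUm n).2 (Or.inr (Or.inr (Or.inl h))))
    · -- u = x
      have h1 := hww n
      rw [hun] at h1
      have h2 : w * (u * (n : G)) * w⁻¹ = z * n := by
        calc w * (u * (n : G)) * w⁻¹ = (w * u * w⁻¹) * (w * n * w⁻¹) := by group
          _ = u * z * (u * n) := by rw [hwx, hun]
          _ = z * (u * u) * n := by rw [hcxz]; group
          _ = z * n := by rw [hx2, mul_one]
      rw [h2] at h1
      exact hz1 (mul_eq_right.1 h1)
    · -- u = z
      have h2 : w * (x * (n : G)) * w⁻¹ = x * n := by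
        calc w * (x * (n : G)) * w⁻¹ = (w * x * w⁻¹) * (w * n * w⁻¹) := by group
          _ = x * u * (u * n) := by rw [hwx, hun]
          _ = x * (u * u) * n := by group
          _ = x * n := by rw [hz2, mul_one]
      have hxM : x ∈ M := (hMm x).2 ⟨hxS, rfl⟩
      rcases hfix _ (mul_mem hxM hnM') h2 with h | h
      · apply hnU
        rw [hUm]; right; left
        have : (n : G) = x⁻¹ * (x * n) := by group
        rw [this, h, mul_one, inv_eq_of_mul_eq_one_right hx2]
      · apply hnU
        rw [hUm]; right; right; right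
        have : (n : G) = x⁻¹ * (x * n) := by group
        rw [this, h, inv_eq_of_mul_eq_one_right hx2]
    · -- u = x z
      have h1 := hww n
      rw [hun] at h1
      have h2 : w * (x * z * (n : G)) * w⁻¹ = z * n := by
        calc w * (x * z * (n : G)) * w⁻¹ = (w * (x * z) * w⁻¹) * (w * n * w⁻¹) := by group
          _ = x * (x * z * n) := by rw [hwxz, hun]
          _ = (x * x) * z * n := by group
          _ = z * n := by rw [hx2, one_mul]
      rw [h2] at h1
      exact hz1 (mul_eq_right.1 h1)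
  -- the four-group Q = {1, w, z, w z} has index two in S
  have hMle : M ≤ (S : Subgroup G) := inf_le_left
  have hMU : M = CfsgH3.fourSub x z hx2 hz2 hcxz := by
    apply le_antisymm hM4
    rintro u (rfl | rfl | rfl | rfl)
    · exact one_mem _
    · exact (hMm u).2 ⟨hxS, rfl⟩
    · exact (hMm u).2 ⟨hzS, hcxz.symm⟩
    · exact (hMm _).2 ⟨hxzS, by rw [mul_assoc, ← hcxz]⟩
  have hMc : Nat.card M = 4 := by
    rw [hMU]
    exact (CfsgH3.isKleinFour_fourSub hx2 hz2 hcxz hx1 hz1 hxz).card_four
  have hQle : CfsgH3.fourSub w z hw2 hz2 hwzc ≤ (S : Subgroup G) := by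
    rintro u (rfl | rfl | rfl | rfl)
    · exact one_mem _
    · exact hwS
    · exact hzS
    · exact mul_mem hwS hzS
  have hw1 : w ≠ 1 := by rintro h; rw [h, orderOf_one] at hwo; omega
  have hQc : Nat.card (CfsgH3.fourSub w z hw2 hz2 hwzc) = 4 :=
    (CfsgH3.isKleinFour_fourSub hw2 hz2 hwzc hw1 hz1 hwz).card_four
  have hMrel : M.relIndex (S : Subgroup G) = 2 := by
    show (M.subgroupOf (S : Subgroup G)).index = 2
    rw [Subgroup.index_eq_two_iff]
    refine ⟨⟨w, hwS⟩, fun b => ?_⟩
    rw [mem_subgroupOf, mem_subgroupOf]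
    by_cases hb : (b : G) ∈ M
    · right
      refine ⟨hb, fun h => hwM ?_⟩
      exact (Subgroup.mul_mem_cancel_left _ hb).1 h
    · left
      exact ⟨hMmul b b.2 w hwS hb hwM, hb⟩
  have hcard : ∀ L : Subgroup G, L ≤ (S : Subgroup G) → Nat.card L * L.relIndex (S : Subgroup G) = Nat.card S := by
    intro L hL
    rw [← relIndex_bot_left L, relIndex_mul_relIndex _ _ _ bot_le hL, relIndex_bot_left]
  have hQrel : (CfsgH3.fourSub w z hw2 hz2 hwzc).relIndex (S : Subgroup G) = 2 := by
    have h1 := hcard M hMle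
    have h2 := hcard _ hQle
    rw [hMc, hMrel] at h1
    rw [hQc] at h2
    omega
  obtain ⟨g, hg⟩ := simple_transfer hG S _ hQrel x hx hxS
  have hgo := order_conj hx g
  rcases hg with h | h | h | h
  · rw [h, orderOf_one] at hgo; omega
  · -- g x g⁻¹ = w = h₀ z h₀⁻¹
    apply hnc (h₀⁻¹ * g)
    calc h₀⁻¹ * g * x * (h₀⁻¹ * g)⁻¹ = h₀⁻¹ * (g * x * g⁻¹) * h₀ := by group
      _ = z := by rw [h, hw]; group
  · exact hnc g h
  · -- g x g⁻¹ = w z = x w x⁻¹
    have h1 : x⁻¹ * w * x = w * z := by
      have h2 : w * x = x * z * w := by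
        calc w * x = (w * x * w⁻¹) * w := by group
          _ = x * z * w := by rw [hwx]
      calc x⁻¹ * w * x = x⁻¹ * (w * x) := by group
        _ = x⁻¹ * (x * z * w) := by rw [h2]
        _ = z * w := by group
        _ = w * z := hwzc.symm
    apply hnc (h₀⁻¹ * x * g)
    calc h₀⁻¹ * x * g * x * (h₀⁻¹ * x * g)⁻¹ = h₀⁻¹ * (x * (g * x * g⁻¹) * x⁻¹) * h₀ := by group
      _ = h₀⁻¹ * (x * (x⁻¹ * w * x) * x⁻¹) * h₀ := by rw [h, h1]
      _ = h₀⁻¹ * w * h₀ := by group
      _ = z := by rw [hw]; group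

theorem cyc_invol_uniq {G : Type*} [Group G] {a u v : G} (hu : u ∈ zpowers a) (hv : v ∈ zpowers a)
    (hou : orderOf u = 2) (hov : orderOf v = 2) : u = v := by
  obtain ⟨i, rfl⟩ := mem_zpowers_iff.1 hu
  obtain ⟨j, rfl⟩ := mem_zpowers_iff.1 hv
  have key : ∀ i : ℤ, orderOf (a ^ i) = 2 → ∃ k : ℤ, 2 * i = orderOf a * (2 * k + 1) := by
    intro i hi
    have h1 : a ^ (2 * i) = 1 := by
      rw [mul_comm, zpow_mul]
      have := pow_orderOf_eq_one (a ^ i)
      rw [hi] at this
      exact_mod_cast this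
    have h2 : ¬ (orderOf a : ℤ) ∣ i := by
      intro h
      rw [orderOf_dvd_iff_zpow_eq_one] at h
      rw [h, orderOf_one] at hi
      omega
    obtain ⟨k, hk⟩ := orderOf_dvd_iff_zpow_eq_one.2 h1
    rcases Int.even_or_odd k with ⟨m, hm⟩ | ⟨m, hm⟩
    · exfalso; apply h2
      refine ⟨m, ?_⟩
      have : (2 : ℤ) * i = 2 * (orderOf a * m) := by rw [hk, hm]; ring
      omega
    · exact ⟨m, by rw [hk, hm]⟩
  obtain ⟨k, hk⟩ := key i hou
  obtain ⟨l, hl⟩ := key j hov
  have : a ^ (i - j) = 1 := by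
    rw [← orderOf_dvd_iff_zpow_eq_one]
    refine ⟨k - l, ?_⟩
    have : (2 : ℤ) * (i - j) = 2 * (orderOf a * (k - l)) := by
      rw [mul_sub, hk, hl]; ring
    omega
  rw [zpow_sub] at this
  exact mul_inv_eq_one.1 this

end CfsgL.Fus
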